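import Cfsg.Agent.H651.O9.Lst
import Cfsg.Agent.H849.O9.Cov
import Mathlib.Algebra.BigOperators.Fin
import Mathlib.GroupTheory.Index
import Mathlib.GroupTheory.QuotientGroup.Defs

/-!
# Every nontrivial element is a product of two elements of order 41 (helper651)
-/

set_option autoImplicit false
set_option exponentiation.threshold 30000
set_option maxRecDepth 100000

namespace Cfsg.Agent.H651.O9

/-- four cosets -/
theorem coset4 {G : Type*} [Group G] [Finite G] {N : Subgroup G} [N.Normal] (hi : N.index = 4) {z t : G} (hz : z ∉ N)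
    (ht : t ∉ N) (hzt : z * t ∉ N) (hz2 : z * z = 1) (hc : z * t = t * z) (a : G) :
    ∃ u ∈ N, a = u ∨ a = u * z ∨ a = u * t ∨ a = u * (z * t) := by
  classical
  have : Fintype (G ⧸ N) := Fintype.ofFinite _
  have hcard : Fintype.card (G ⧸ N) = 4 := by
    rw [← Nat.card_eq_fintype_card]
    exact hi
  have hne : ∀ x y : G, x * y⁻¹ ∉ N → (x : G ⧸ N) ≠ (y : G ⧸ N) := fun x y h h1 => by
    rw [QuotientGroup.eq_iff_div_mem, div_eq_mul_inv] at h1
    exact h h1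
  have hzi : z⁻¹ = z := inv_eq_of_mul_eq_one_left hz2
  have e1 : ((1 : G) : G ⧸ N) ≠ (z : G ⧸ N) := hne _ _ (by rw [one_mul, hzi]; exact hz)
  have e2 : ((1 : G) : G ⧸ N) ≠ (t : G ⧸ N) := hne _ _ (by rw [one_mul]; exact fun h => ht (N.inv_mem_iff.1 h))
  have e3 : ((1 : G) : G ⧸ N) ≠ ((z * t : G) : G ⧸ N) :=
    hne _ _ (by rw [one_mul]; exact fun h => hzt (N.inv_mem_iff.1 h))
  have e4 : (z : G ⧸ N) ≠ (t : G ⧸ N) := by
    refine (hne t z ?_).symm
    rw [hzi, ← hc]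
    exact hzt
  have e5 : (z : G ⧸ N) ≠ ((z * t : G) : G ⧸ N) := by
    refine (hne (z * t) z ?_).symm
    rw [hc, mul_inv_cancel_right]
    exact ht
  have e6 : (t : G ⧸ N) ≠ ((z * t : G) : G ⧸ N) := by
    refine (hne (z * t) t ?_).symm
    rw [mul_inv_cancel_right]
    exact hz
  have hs : ({((1 : G) : G ⧸ N), (z : G ⧸ N), (t : G ⧸ N), ((z * t : G) : G ⧸ N)} : Finset (G ⧸ N)) = Finset.univ := by
    apply Finset.eq_univ_of_card
    rw [hcard, Finset.card_insert_of_notMem, Finset.card_insert_of_notMem, Finset.card_insert_of_notMem,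
      Finset.card_singleton]
    · rw [Finset.mem_singleton]; exact e6
    · rw [Finset.mem_insert, Finset.mem_singleton, not_or]; exact ⟨e4, e5⟩
    · rw [Finset.mem_insert, Finset.mem_insert, Finset.mem_singleton, not_or, not_or]; exact ⟨e1, e2, e3⟩
  have ha : (a : G ⧸ N) ∈ ({((1 : G) : G ⧸ N), (z : G ⧸ N), (t : G ⧸ N), ((z * t : G) : G ⧸ N)} : Finset (G ⧸ N)) := by
    rw [hs]; exact Finset.mem_univ _
  rw [Finset.mem_insert, Finset.mem_insert, Finset.mem_insert, Finset.mem_singleton] at ha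
  rcases ha with h | h | h | h
  · rw [QuotientGroup.eq_iff_div_mem, div_one] at h
    exact ⟨a, h, Or.inl rfl⟩
  · rw [QuotientGroup.eq_iff_div_mem] at h
    exact ⟨a / z, h, Or.inr (Or.inl (div_mul_cancel a z).symm)⟩
  · rw [QuotientGroup.eq_iff_div_mem] at h
    exact ⟨a / t, h, Or.inr (Or.inr (Or.inl (div_mul_cancel a t).symm))⟩
  · rw [QuotientGroup.eq_iff_div_mem] at h
    exact ⟨a / (z * t), h, Or.inr (Or.inr (Or.inr (div_mul_cancel a (z * t)).symm))⟩

/-- elements of order 41 are in the subgroup of index 4 -/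
theorem mem_of_41 {G : Type*} [Group G] {N : Subgroup G} [N.Normal] (hi : N.index = 4) {x : G} (hx : x ^ 41 = 1) :
    x ∈ N := by
  have h := N.pow_index_mem x
  rw [hi] at h
  have h2 := N.pow_mem h 31
  rw [← pow_mul] at h2
  have h3 : x ^ (4 * 31) = x := by
    rw [show 4 * 31 = 41 * 3 + 1 by norm_num, pow_succ, pow_mul, hx, one_pow, one_mul]
  rwa [h3] at h2

/-- the conjugators can be chosen in the subgroup -/
theorem conj_in {G : Type*} [Group G] [Finite G] {N : Subgroup G} [N.Normal] (hi : N.index = 4) {z t x : G} (hz : z ∉ N)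
    (ht : t ∉ N) (hzt : z * t ∉ N) (hz2 : z * z = 1) (hc : z * t = t * z) (hzx : z * x = x * z) (htx : t * x = x * t)
    (a : G) : ∃ u ∈ N, a * x * a⁻¹ = u * x * u⁻¹ := by
  obtain ⟨u, hu, h⟩ := coset4 hi hz ht hzt hz2 hc a
  have key : ∀ s : G, s * x = x * s → u * s * x * (u * s)⁻¹ = u * x * u⁻¹ := by
    intro s hs
    rw [mul_inv_rev, mul_assoc u s x, hs]
    group
  refine ⟨u, hu, ?_⟩
  rcases h with h | h | h | h
  · rw [h]
  · rw [h]; exact key z hzx
  · rw [h]; exact key t htx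
  · rw [h]; exact key (z * t) (by rw [mul_assoc, htx, ← mul_assoc, hzx, mul_assoc])

/-- what is known of every entry of the list -/
def Qd (N : Subgroup (V ≃ₗ[ZMod 3] V)) (z : ℕ × ℕ) (r : V ≃ₗ[ZMod 3] V) : Prop :=
  r ∈ OB ∧ r ∈ N ∧ Bd r z.1 z.2 ∧ (r = 1 ∨ ∃ p ∈ OB, r = xx * (p * yy * p⁻¹))

/-- the full list -/
def Lf : List (ℕ × ℕ) := (263139026617958399, 247867571952861938194127346) :: Lst

theorem sum_Lf : 65784756654489600 ≤ (Lf.map fun z => 4 * 65784756654489600 / Nat.succ z.1).sum := sum_le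

theorem nodup_Lf : (Lf.map Prod.snd).Nodup := keys_nodup

theorem finite_gl : Finite (V ≃ₗ[ZMod 3] V) :=
  Finite.of_injective (fun g : V ≃ₗ[ZMod 3] V => (g : V → V)) DFunLike.coe_injective

/-- **The products of two elements of order 41.** -/
theorem cov_of (N : Subgroup (V ≃ₗ[ZMod 3] V)) (hle : N ≤ OB) (hconj : ∀ a ∈ OB, ∀ x ∈ N, a * x * a⁻¹ ∈ N)
    (cN : Nat.card N = 65784756654489600) (cO : Nat.card OB = 4 * 65784756654489600) :
    ∃ X ∈ N, ∃ Y ∈ N, orderOf X = 41 ∧ orderOf Y = 41 ∧ ∀ g ∈ N, g ≠ 1 → ∃ u ∈ N, ∃ v ∈ N,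
      g = (u * X * u⁻¹) * (v * Y * v⁻¹) := by
  have hfin : Finite (V ≃ₗ[ZMod 3] V) := finite_gl
  -- the subgroup inside the orthogonal group
  have hM : ∀ x : OB, x ∈ N.subgroupOf OB ↔ (x : V ≃ₗ[ZMod 3] V) ∈ N := fun x => Subgroup.mem_subgroupOf
  have hnor : (N.subgroupOf OB).Normal := ⟨fun x hx a => by
    rw [hM] at hx ⊢
    exact hconj a a.2 x hx⟩
  have cM : Nat.card (N.subgroupOf OB) = 65784756654489600 := by
    rw [← cN]
    exact Nat.card_congr (Subgroup.subgroupOfEquivOfLe hle).toEquiv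
  have hi : (N.subgroupOf OB).index = 4 := by
    have h := (N.subgroupOf OB).index_mul_card
    rw [cM, cO] at h
    omega
  have hxN : xx ∈ N := (hM ⟨xx, xx_mem⟩).1 (mem_of_41 hi (Subtype.ext xx_pow))
  have hyN : yy ∈ N := (hM ⟨yy, yy_mem⟩).1 (mem_of_41 hi (Subtype.ext yy_pow))
  -- the representatives
  have hQ : ∀ z ∈ Lf, ∃ r, Qd N z r := by
    intro z hz
    rcases List.mem_cons.1 hz with rfl | hz
    · exact ⟨1, OB.one_mem, N.one_mem, one_bd, Or.inl rfl⟩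
    · obtain ⟨p, hp, hb⟩ := all_ok z hz
      exact ⟨_, OB.mul_mem xx_mem (OB.mul_mem (OB.mul_mem hp yy_mem) (OB.inv_mem hp)),
        N.mul_mem hxN (hconj p hp yy hyN), hb, Or.inr ⟨p, hp, rfl⟩⟩
  have hmem : ∀ i : Fin Lf.length, Lf.get i ∈ Lf := fun i => List.get_mem _ _
  choose r hr using fun i : Fin Lf.length => hQ _ (hmem i)
  have hcov : ∀ x ∈ N.subgroupOf OB, ∃ (i : Fin Lf.length) (a : OB), x = a * ⟨r i, (hr i).1⟩ * a⁻¹ := by
    refine H849.O9.cover_key (G := OB) (N.subgroupOf OB) (fun a x hx => hnor.conj_mem x hx a)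
      (fun i : Fin Lf.length => (⟨r i, (hr i).1⟩ : OB)) (fun i => Nat.succ (Lf.get i).1) (fun i => (hM _).2 (hr i).2.1)
      (fun i => ?_) (fun x : OB => key (x : V ≃ₗ[ZMod 3] V)) (fun a x => key_conj _ a.2) ?_ ?_
    · have h := (hr i).2.2.1.2 ((Subgroup.centralizer ({(⟨r i, (hr i).1⟩ : OB)} : Set OB)).map OB.subtype)
        (Subgroup.map_subtype_le _) ?_
      · have e : Nat.card ((Subgroup.centralizer ({(⟨r i, (hr i).1⟩ : OB)} : Set OB)).map OB.subtype) =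
            Nat.card (Subgroup.centralizer ({(⟨r i, (hr i).1⟩ : OB)} : Set OB)) :=
          (Nat.card_congr (Subgroup.equivMapOfInjective _ _ OB.subtype_injective).toEquiv).symm
        rw [e] at h
        exact h
      · rintro σ ⟨s, hs, rfl⟩
        exact (congrArg Subtype.val (Subgroup.mem_centralizer_singleton_iff.1 hs))
    · intro i j h
      have h1 : (Lf.get i).2 = (Lf.get j).2 := by
        rw [← (hr i).2.2.1.1, ← (hr j).2.2.1.1]
        exact h
      have h2 := List.inj_on_of_nodup_map nodup_Lf (hmem i) (hmem j) h1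
      exact (List.nodup_iff_injective_get.1 (List.Nodup.of_map _ nodup_Lf)) h2
    · rw [cM, cO]
      have h := Fin.sum_univ_fun_getElem Lf fun z : ℕ × ℕ => 4 * 65784756654489600 / Nat.succ z.1
      refine le_trans sum_Lf (le_of_eq ?_)
      rw [← h]
      rfl
  -- keys of the elements of the subgroup
  have hkey : ∀ x ∈ N, key x ∈ Lf.map Prod.snd := by
    intro x hx
    obtain ⟨i, a, h⟩ := hcov ⟨x, hle hx⟩ ((hM _).2 hx)
    have h1 : x = a * r i * (a : V ≃ₗ[ZMod 3] V)⁻¹ := congrArg Subtype.val h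
    rw [h1, key_conj _ a.2, (hr i).2.2.1.1]
    exact List.mem_map_of_mem (hmem i)
  have hzN : (⟨zz, zz_mem⟩ : OB) ∉ N.subgroupOf OB := fun h =>
    (keys_mem.1 _ (hkey _ ((hM _).1 h))).1 key_zz
  have htN : (⟨tt, tt_mem⟩ : OB) ∉ N.subgroupOf OB := fun h =>
    (keys_mem.1 _ (hkey _ ((hM _).1 h))).2.1 key_tt
  have hztN : (⟨zz, zz_mem⟩ : OB) * ⟨tt, tt_mem⟩ ∉ N.subgroupOf OB := fun h =>
    (keys_mem.1 _ (hkey _ ((hM _).1 h))).2.2 key_zt
  have hcj : ∀ {w : V ≃ₗ[ZMod 3] V} (hw : w ∈ OB), zz * w = w * zz → tt * w = w * tt → ∀ a ∈ OB,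
      ∃ u ∈ N, a * w * a⁻¹ = u * w * u⁻¹ := by
    intro w hw h1 h2 a ha
    obtain ⟨u, hu, h⟩ := conj_in hi hzN htN hztN (Subtype.ext zz_sq) (Subtype.ext zt) (x := ⟨w, hw⟩) (Subtype.ext h1)
      (Subtype.ext h2) ⟨a, ha⟩
    exact ⟨u, (hM u).1 hu, congrArg Subtype.val h⟩
  have hx1 : xx ≠ 1 := fun h => keys_mem.2.1 (by rw [← key_xx, h]; exact one_bd.1)
  have hy1 : yy ≠ 1 := fun h => keys_mem.2.2 (by rw [← key_yy, h]; exact one_bd.1)
  have hp41 : Fact (Nat.Prime 41) := ⟨by norm_num⟩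
  refine ⟨xx, hxN, yy, hyN, orderOf_eq_prime xx_pow hx1, orderOf_eq_prime yy_pow hy1, fun g hg hg1 => ?_⟩
  obtain ⟨i, a, h⟩ := hcov ⟨g, hle hg⟩ ((hM _).2 hg)
  have h1 : g = a * r i * (a : V ≃ₗ[ZMod 3] V)⁻¹ := congrArg Subtype.val h
  rcases (hr i).2.2.2 with h2 | ⟨p, hp, h2⟩
  · exfalso
    apply hg1
    rw [h1, h2, mul_one, mul_inv_cancel]
  · obtain ⟨u, hu, hu1⟩ := hcj xx_mem zx tx a a.2
    obtain ⟨v, hv, hv1⟩ := hcj yy_mem zy ty (a * p) (OB.mul_mem a.2 hp)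
    refine ⟨u, hu, v, hv, ?_⟩
    rw [← hu1, ← hv1, h1, h2]
    group

end Cfsg.Agent.H651.O9
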