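import Cfsg.Agent.H651.O9.D0
import Cfsg.Agent.H651.O9.D1
import Cfsg.Agent.H651.O9.D2
import Cfsg.Agent.H651.O9.D3
import Cfsg.Agent.H651.O9.D4
import Cfsg.Agent.H651.O9.D5
import Cfsg.Agent.H651.O9.D6
import Cfsg.Agent.H651.O9.D7
import Cfsg.Agent.H651.O9.D8
import Cfsg.Agent.H651.O9.D9

/-!
# The list of all classes (helper651)
-/

set_option autoImplicit false
set_option exponentiation.threshold 30000
set_option maxRecDepth 100000

namespace Cfsg.Agent.H651.O9

/-- centralizer bound (minus one) and invariant of the nontrivial classes -/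
def Lst : List (ℕ × ℕ) :=
  [
    (161, 113897138240453257200426), (3887, 115017789342319777284906), (1943, 566683995045005938066218),
    (52487, 340010386768179971556624), (52487, 340010386768179970965828), (52487, 340010438065428960903492),
    (52487, 340010438065428961494288), (104975, 1020031160301408881738538), (1679615, 3740114254434324527186730),
    (2099519, 2380072758665115696169770), (104975, 340010386766614455978690), (944783, 1020031160299843366160604),
    (22674815, 3060093480899530100245290), (11337407, 3060093480899530102017678),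
    (204073343, 1020031160299843369699548), (102036671, 5100155801499216832563420),
    (114281072639, 25500779007496084178733276), (106118138879, 29580903648695457641597148),
    (6122200319, 3060093480899530103790066), (440798423039, 27540841328095770912823794),
    (431, 113523572673283747086390), (10367, 113336795589741218365494), (5183, 566683983644921491685430),
    (93311, 340010386768006026559542), (46655, 340010386767310243627386), (279935, 1020031160299843369697496),
    (4478975, 3740114254432759034020056), (5598719, 2380072707368388564811992),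
    (20155391, 3060093480899530125017790), (146731253759, 27540841328095771103920830),
    (647, 113336795589625251889746), (647, 114083888724784435495182), (1295, 113336795589973144240722),
    (20735, 113336795589973146600018), (15551, 113336795589915165721116), (15551, 113336795589393325426152),
    (31103, 113336795588871488668836), (497663, 113336795588871509902500), (7775, 566683977944705319765480),
    (7775, 567804617647705015321116), (15551, 566683977945748996818084), (248831, 566683977945749018051748),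
    (46655, 340010386766614457156934), (46655, 340010386768179974505798), (93311, 340010386766614460697498),
    (1492991, 340010386766614481931162), (3732479, 3060093480899530121479494), (3732479, 3060093480901095638828358),
    (7464959, 3060093480899530125020058), (119439359, 3060093480899530316123034), (647, 113336812688998158827844),
    (647, 113336795589915162771456), (3887, 113336795589915162182280), (46655, 113336795589915165720576),
    (46655, 113336795589393325425612), (279935, 113336795588871488667648), (156764159, 113336795588871509901312),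
    (5183, 340010403867089024385078), (5183, 340010386767310242447414), (31103, 340010386767658134208566),
    (373247, 340010386766614478389626), (373247, 340010386768179995738490), (2239487, 340010386766614481929542),
    (1254113279, 340010386766614673032518), (647, 38339257414586206454354), (647, 37778943263737395937874),
    (5831, 37778948963779620701078), (5831, 37778931863131108475798), (46655, 37778948964127515411026),
    (46655, 37778931862957164069458), (11663, 37778931863652947003234), (839807, 37778931864000840532562),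
    (209951, 37778931863479003777514), (3779135, 37778931862957163480606), (3779135, 37778931864522680829470),
    (302330879, 37778931862957184714270), (302330879, 37778931864522702063134), (75582719, 37778931862957167022466),
    (1088391167, 37778931862957188256130), (79234877030399, 37778931862957379359106),
    (287, 113336808889685122941072), (3455, 566683977945826325692506), (6911, 113336795589296713433178),
    (20735, 340010386767387565425000), (1658879, 3060093480900303399616872), (863, 113336795589876512784510),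
    (863, 114457435291948488327186), (34559, 113336795589064785199230), (6911, 340010386767851432509476),
    (6911, 340010386767097660440612), (276479, 340010386767387756527868), (863, 37778948963470384234712),
    (863, 37778931863459676422576), (2591, 37778931864097475526656), (62207, 37778931863575663542272),
    (62207, 37778931863749604409344), (186623, 37778931864967222329344), (194088959, 37778931864967413432320),
    (215, 113585834234676630258042), (1727, 113336795589509287772754), (179, 113751860631092330496180),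
    (5183, 114083911523677731422532), (41471, 113336795590263086384292), (2159, 567306555557714854084626),
    (4319, 113336795589741216399378), (2591, 566683977945401104466244), (20735, 566683977944357441569956),
    (15551, 340010386767658137748266), (124415, 340010386766614503164826), (12959, 340010386769223648018504),
    (1244159, 3060093480900573802070826), (9953279, 3060093480899530337356698), (1036799, 3060093480902139293466696),
    (575, 114083911523986969067952), (4607, 113336795589644611092480), (239, 113613505194806250504492),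
    (479, 113890206355969876033782), (191, 113502821352818891489838), (4607, 340010386767039683691558),
    (36863, 340010386767851644846278), (1919, 340287096372549222924318), (3839, 340563797533364955906060),
    (1535, 340674489820084800652524), (863, 38526024998522220904790), (6911, 37778931863884890571742),
    (719, 37986457734366215143430), (719, 38193983605601321812154), (863, 37778954663415973806422),
    (6911, 37778931863594996204510), (1727, 37778931864000844071794), (13823, 37778931862957209487490),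
    (27647, 37778931864000865305458), (221183, 37778931862957400590466), (28799, 37778931864696625823786),
    (719, 37778942419331793158144), (575, 37944957626788603953440), (575, 37944957626962550325536),
    (719, 37778936085970870796288), (1439, 37778948752518768754688), (23039, 37778948752518771113984),
    (23039, 38443034916427506975440), (167, 113627340675305925771432), (167, 113627340674494176953076),
    (191, 113502831486034016993472), (155, 113696507099062588146138), (155, 113516662321616756146650),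
    (239, 113890208467167492440730), (1343, 340300931853048896225286), (1343, 340882022023482531054162),
    (1535, 340674499953183961055334), (1247, 340370098276805558796924), (1247, 340190253499359726797436),
    (1919, 340563805978097442226788), (447, 38069476949391602549186), (447, 37875780225913724272670),
    (511, 38443045049526667378754), (207, 37958804084715734565446), (207, 37958793106940387263124),
    (319, 37917299332685046874442), (415, 37778942841235020579128), (415, 37958787619183363751936),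
    (639, 38055641469162513367160), (223, 38069476949391602548736), (223, 38069476949391602549156),
    (287, 38152478431300185423872), (3455, 37778931863691617043080), (193535, 37778931864039636795392),
    (159, 38332342630190843757186), (159, 37778940307979557208706), (159, 38055641469858294597186),
    (143, 37778931863652946477794), (11519, 37778931862957161776706), (179, 37778931864503350002186),
    (14399, 37778931864503350003266), (179, 37778931865276444115736), (14399, 37778931865276444116546),
    (223, 38069476949391602942402), (223, 38069476949391602942654), (215, 38027985708237103628882),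
    (2591, 38152478431145570140754), (15551, 37778931863652951721826), (186623, 37778931864000886538834),
    (104509439, 37778931862957591695746), (163, 38062559209238401384694), (163, 38062550553882867532022),
    (163, 38346177899371685741282), (163, 37778940519105117029090), (163, 38062567864593935237366),
    (159, 37889615705717614838000), (207, 38138654350672356442424), (207, 37958798595199921554110),
    (239, 38332346852489440526696), (1919, 38332334186231452663808)]

theorem all_ok : ∀ z ∈ Lst, Ok z.1 z.2 := by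
  unfold Lst
  refine List.forall_mem_cons.2 ⟨a0, ?_⟩
  refine List.forall_mem_cons.2 ⟨a1, ?_⟩
  refine List.forall_mem_cons.2 ⟨a2, ?_⟩
  refine List.forall_mem_cons.2 ⟨a3, ?_⟩
  refine List.forall_mem_cons.2 ⟨a4, ?_⟩
  refine List.forall_mem_cons.2 ⟨a5, ?_⟩
  refine List.forall_mem_cons.2 ⟨a6, ?_⟩
  refine List.forall_mem_cons.2 ⟨a7, ?_⟩
  refine List.forall_mem_cons.2 ⟨a8, ?_⟩
  refine List.forall_mem_cons.2 ⟨a9, ?_⟩
  refine List.forall_mem_cons.2 ⟨a10, ?_⟩
  refine List.forall_mem_cons.2 ⟨a11, ?_⟩
  refine List.forall_mem_cons.2 ⟨a12, ?_⟩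
  refine List.forall_mem_cons.2 ⟨a13, ?_⟩
  refine List.forall_mem_cons.2 ⟨a14, ?_⟩
  refine List.forall_mem_cons.2 ⟨a15, ?_⟩
  refine List.forall_mem_cons.2 ⟨a16, ?_⟩
  refine List.forall_mem_cons.2 ⟨a17, ?_⟩
  refine List.forall_mem_cons.2 ⟨a18, ?_⟩
  refine List.forall_mem_cons.2 ⟨a19, ?_⟩
  refine List.forall_mem_cons.2 ⟨a21, ?_⟩
  refine List.forall_mem_cons.2 ⟨a22, ?_⟩
  refine List.forall_mem_cons.2 ⟨a23, ?_⟩
  refine List.forall_mem_cons.2 ⟨a24, ?_⟩
  refine List.forall_mem_cons.2 ⟨a25, ?_⟩
  refine List.forall_mem_cons.2 ⟨a26, ?_⟩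
  refine List.forall_mem_cons.2 ⟨a27, ?_⟩
  refine List.forall_mem_cons.2 ⟨a28, ?_⟩
  refine List.forall_mem_cons.2 ⟨a29, ?_⟩
  refine List.forall_mem_cons.2 ⟨a30, ?_⟩
  refine List.forall_mem_cons.2 ⟨a31, ?_⟩
  refine List.forall_mem_cons.2 ⟨a32, ?_⟩
  refine List.forall_mem_cons.2 ⟨a33, ?_⟩
  refine List.forall_mem_cons.2 ⟨a34, ?_⟩
  refine List.forall_mem_cons.2 ⟨a35, ?_⟩
  refine List.forall_mem_cons.2 ⟨a36, ?_⟩
  refine List.forall_mem_cons.2 ⟨a37, ?_⟩
  refine List.forall_mem_cons.2 ⟨a38, ?_⟩
  refine List.forall_mem_cons.2 ⟨a39, ?_⟩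
  refine List.forall_mem_cons.2 ⟨a40, ?_⟩
  refine List.forall_mem_cons.2 ⟨a41, ?_⟩
  refine List.forall_mem_cons.2 ⟨a42, ?_⟩
  refine List.forall_mem_cons.2 ⟨a43, ?_⟩
  refine List.forall_mem_cons.2 ⟨a44, ?_⟩
  refine List.forall_mem_cons.2 ⟨a45, ?_⟩
  refine List.forall_mem_cons.2 ⟨a46, ?_⟩
  refine List.forall_mem_cons.2 ⟨a47, ?_⟩
  refine List.forall_mem_cons.2 ⟨a48, ?_⟩
  refine List.forall_mem_cons.2 ⟨a49, ?_⟩
  refine List.forall_mem_cons.2 ⟨a50, ?_⟩
  refine List.forall_mem_cons.2 ⟨a51, ?_⟩
  refine List.forall_mem_cons.2 ⟨a52, ?_⟩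
  refine List.forall_mem_cons.2 ⟨a53, ?_⟩
  refine List.forall_mem_cons.2 ⟨a54, ?_⟩
  refine List.forall_mem_cons.2 ⟨a55, ?_⟩
  refine List.forall_mem_cons.2 ⟨a56, ?_⟩
  refine List.forall_mem_cons.2 ⟨a57, ?_⟩
  refine List.forall_mem_cons.2 ⟨a58, ?_⟩
  refine List.forall_mem_cons.2 ⟨a59, ?_⟩
  refine List.forall_mem_cons.2 ⟨a60, ?_⟩
  refine List.forall_mem_cons.2 ⟨a61, ?_⟩
  refine List.forall_mem_cons.2 ⟨a62, ?_⟩
  refine List.forall_mem_cons.2 ⟨a63, ?_⟩
  refine List.forall_mem_cons.2 ⟨a64, ?_⟩
  refine List.forall_mem_cons.2 ⟨a65, ?_⟩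
  refine List.forall_mem_cons.2 ⟨a66, ?_⟩
  refine List.forall_mem_cons.2 ⟨a67, ?_⟩
  refine List.forall_mem_cons.2 ⟨a68, ?_⟩
  refine List.forall_mem_cons.2 ⟨a69, ?_⟩
  refine List.forall_mem_cons.2 ⟨a70, ?_⟩
  refine List.forall_mem_cons.2 ⟨a71, ?_⟩
  refine List.forall_mem_cons.2 ⟨a72, ?_⟩
  refine List.forall_mem_cons.2 ⟨a73, ?_⟩
  refine List.forall_mem_cons.2 ⟨a74, ?_⟩
  refine List.forall_mem_cons.2 ⟨a75, ?_⟩
  refine List.forall_mem_cons.2 ⟨a76, ?_⟩
  refine List.forall_mem_cons.2 ⟨a77, ?_⟩
  refine List.forall_mem_cons.2 ⟨a78, ?_⟩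
  refine List.forall_mem_cons.2 ⟨a79, ?_⟩
  refine List.forall_mem_cons.2 ⟨a80, ?_⟩
  refine List.forall_mem_cons.2 ⟨a81, ?_⟩
  refine List.forall_mem_cons.2 ⟨a82, ?_⟩
  refine List.forall_mem_cons.2 ⟨a83, ?_⟩
  refine List.forall_mem_cons.2 ⟨a84, ?_⟩
  refine List.forall_mem_cons.2 ⟨a85, ?_⟩
  refine List.forall_mem_cons.2 ⟨a86, ?_⟩
  refine List.forall_mem_cons.2 ⟨a87, ?_⟩
  refine List.forall_mem_cons.2 ⟨a88, ?_⟩
  refine List.forall_mem_cons.2 ⟨a89, ?_⟩
  refine List.forall_mem_cons.2 ⟨a90, ?_⟩
  refine List.forall_mem_cons.2 ⟨a91, ?_⟩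
  refine List.forall_mem_cons.2 ⟨a92, ?_⟩
  refine List.forall_mem_cons.2 ⟨a93, ?_⟩
  refine List.forall_mem_cons.2 ⟨a94, ?_⟩
  refine List.forall_mem_cons.2 ⟨a95, ?_⟩
  refine List.forall_mem_cons.2 ⟨a96, ?_⟩
  refine List.forall_mem_cons.2 ⟨a97, ?_⟩
  refine List.forall_mem_cons.2 ⟨a98, ?_⟩
  refine List.forall_mem_cons.2 ⟨a99, ?_⟩
  refine List.forall_mem_cons.2 ⟨a100, ?_⟩
  refine List.forall_mem_cons.2 ⟨a101, ?_⟩
  refine List.forall_mem_cons.2 ⟨a102, ?_⟩
  refine List.forall_mem_cons.2 ⟨a103, ?_⟩
  refine List.forall_mem_cons.2 ⟨a104, ?_⟩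
  refine List.forall_mem_cons.2 ⟨a105, ?_⟩
  refine List.forall_mem_cons.2 ⟨a106, ?_⟩
  refine List.forall_mem_cons.2 ⟨a107, ?_⟩
  refine List.forall_mem_cons.2 ⟨a108, ?_⟩
  refine List.forall_mem_cons.2 ⟨a109, ?_⟩
  refine List.forall_mem_cons.2 ⟨a110, ?_⟩
  refine List.forall_mem_cons.2 ⟨a111, ?_⟩
  refine List.forall_mem_cons.2 ⟨a112, ?_⟩
  refine List.forall_mem_cons.2 ⟨a113, ?_⟩
  refine List.forall_mem_cons.2 ⟨a114, ?_⟩
  refine List.forall_mem_cons.2 ⟨a115, ?_⟩
  refine List.forall_mem_cons.2 ⟨a116, ?_⟩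
  refine List.forall_mem_cons.2 ⟨a117, ?_⟩
  refine List.forall_mem_cons.2 ⟨a118, ?_⟩
  refine List.forall_mem_cons.2 ⟨a119, ?_⟩
  refine List.forall_mem_cons.2 ⟨a120, ?_⟩
  refine List.forall_mem_cons.2 ⟨a121, ?_⟩
  refine List.forall_mem_cons.2 ⟨a122, ?_⟩
  refine List.forall_mem_cons.2 ⟨a123, ?_⟩
  refine List.forall_mem_cons.2 ⟨a124, ?_⟩
  refine List.forall_mem_cons.2 ⟨a125, ?_⟩
  refine List.forall_mem_cons.2 ⟨a126, ?_⟩
  refine List.forall_mem_cons.2 ⟨a127, ?_⟩
  refine List.forall_mem_cons.2 ⟨a128, ?_⟩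
  refine List.forall_mem_cons.2 ⟨a129, ?_⟩
  refine List.forall_mem_cons.2 ⟨a130, ?_⟩
  refine List.forall_mem_cons.2 ⟨a131, ?_⟩
  refine List.forall_mem_cons.2 ⟨a132, ?_⟩
  refine List.forall_mem_cons.2 ⟨a133, ?_⟩
  refine List.forall_mem_cons.2 ⟨a134, ?_⟩
  refine List.forall_mem_cons.2 ⟨a135, ?_⟩
  refine List.forall_mem_cons.2 ⟨a136, ?_⟩
  refine List.forall_mem_cons.2 ⟨a137, ?_⟩
  refine List.forall_mem_cons.2 ⟨a138, ?_⟩
  refine List.forall_mem_cons.2 ⟨a139, ?_⟩
  refine List.forall_mem_cons.2 ⟨a140, ?_⟩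
  refine List.forall_mem_cons.2 ⟨a141, ?_⟩
  refine List.forall_mem_cons.2 ⟨a142, ?_⟩
  refine List.forall_mem_cons.2 ⟨a143, ?_⟩
  refine List.forall_mem_cons.2 ⟨a144, ?_⟩
  refine List.forall_mem_cons.2 ⟨a145, ?_⟩
  refine List.forall_mem_cons.2 ⟨a146, ?_⟩
  refine List.forall_mem_cons.2 ⟨a147, ?_⟩
  refine List.forall_mem_cons.2 ⟨a148, ?_⟩
  refine List.forall_mem_cons.2 ⟨a149, ?_⟩
  refine List.forall_mem_cons.2 ⟨a150, ?_⟩
  refine List.forall_mem_cons.2 ⟨a151, ?_⟩
  refine List.forall_mem_cons.2 ⟨a152, ?_⟩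
  refine List.forall_mem_cons.2 ⟨a153, ?_⟩
  refine List.forall_mem_cons.2 ⟨a154, ?_⟩
  refine List.forall_mem_cons.2 ⟨a155, ?_⟩
  refine List.forall_mem_cons.2 ⟨a156, ?_⟩
  refine List.forall_mem_cons.2 ⟨a157, ?_⟩
  refine List.forall_mem_cons.2 ⟨a158, ?_⟩
  refine List.forall_mem_cons.2 ⟨a159, ?_⟩
  refine List.forall_mem_cons.2 ⟨a160, ?_⟩
  refine List.forall_mem_cons.2 ⟨a161, ?_⟩
  refine List.forall_mem_cons.2 ⟨a162, ?_⟩
  refine List.forall_mem_cons.2 ⟨a163, ?_⟩
  refine List.forall_mem_cons.2 ⟨a164, ?_⟩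
  refine List.forall_mem_cons.2 ⟨a165, ?_⟩
  refine List.forall_mem_cons.2 ⟨a166, ?_⟩
  refine List.forall_mem_cons.2 ⟨a167, ?_⟩
  refine List.forall_mem_cons.2 ⟨a168, ?_⟩
  refine List.forall_mem_cons.2 ⟨a169, ?_⟩
  refine List.forall_mem_cons.2 ⟨a170, ?_⟩
  refine List.forall_mem_cons.2 ⟨a171, ?_⟩
  refine List.forall_mem_cons.2 ⟨a172, ?_⟩
  refine List.forall_mem_cons.2 ⟨a173, ?_⟩
  refine List.forall_mem_cons.2 ⟨a174, ?_⟩
  refine List.forall_mem_cons.2 ⟨a175, ?_⟩
  refine List.forall_mem_cons.2 ⟨a176, ?_⟩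
  refine List.forall_mem_cons.2 ⟨a177, ?_⟩
  refine List.forall_mem_cons.2 ⟨a178, ?_⟩
  refine List.forall_mem_cons.2 ⟨a179, ?_⟩
  refine List.forall_mem_cons.2 ⟨a180, ?_⟩
  refine List.forall_mem_cons.2 ⟨a181, ?_⟩
  refine List.forall_mem_cons.2 ⟨a182, ?_⟩
  refine List.forall_mem_cons.2 ⟨a183, ?_⟩
  refine List.forall_mem_cons.2 ⟨a184, ?_⟩
  refine List.forall_mem_cons.2 ⟨a185, ?_⟩
  refine List.forall_mem_cons.2 ⟨a186, ?_⟩
  refine List.forall_mem_cons.2 ⟨a187, ?_⟩
  refine List.forall_mem_cons.2 ⟨a188, ?_⟩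
  refine List.forall_mem_cons.2 ⟨a189, ?_⟩
  refine List.forall_mem_cons.2 ⟨a190, ?_⟩
  refine List.forall_mem_cons.2 ⟨a191, ?_⟩
  refine List.forall_mem_cons.2 ⟨a192, ?_⟩
  refine List.forall_mem_cons.2 ⟨a193, ?_⟩
  intro z hz
  cases hz

/-- the matrix of the identity -/
def IM : List (List ℕ) :=
  [[1, 0, 0, 0, 0, 0, 0, 0, 0], [0, 1, 0, 0, 0, 0, 0, 0, 0], [0, 0, 1, 0, 0, 0, 0, 0, 0], [0, 0, 0, 1, 0, 0, 0, 0, 0], [0, 0, 0, 0, 1, 0, 0, 0, 0], [0, 0, 0, 0, 0, 1, 0, 0, 0], [0, 0, 0, 0, 0, 0, 1, 0, 0], [0, 0, 0, 0, 0, 0, 0, 1, 0], [0, 0, 0, 0, 0, 0, 0, 0, 1]]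

/-- the matrix of the negative of the identity -/
def ZM : List (List ℕ) :=
  [[2, 0, 0, 0, 0, 0, 0, 0, 0], [0, 2, 0, 0, 0, 0, 0, 0, 0], [0, 0, 2, 0, 0, 0, 0, 0, 0], [0, 0, 0, 2, 0, 0, 0, 0, 0], [0, 0, 0, 0, 2, 0, 0, 0, 0], [0, 0, 0, 0, 0, 2, 0, 0, 0], [0, 0, 0, 0, 0, 0, 2, 0, 0], [0, 0, 0, 0, 0, 0, 0, 2, 0], [0, 0, 0, 0, 0, 0, 0, 0, 2]]

/-- the matrix of the negative of the involution -/
def WM : List (List ℕ) :=
  [[0, 2, 0, 0, 0, 0, 0, 0, 0], [2, 0, 0, 0, 0, 0, 0, 0, 0], [0, 0, 1, 0, 0, 0, 0, 0, 0], [0, 0, 0, 1, 0, 0, 0, 0, 0], [0, 0, 0, 0, 1, 0, 0, 0, 0], [0, 0, 0, 0, 0, 1, 0, 0, 0], [0, 0, 0, 0, 0, 0, 1, 0, 0], [0, 0, 0, 0, 0, 0, 0, 1, 0], [0, 0, 0, 0, 0, 0, 0, 0, 1]]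

theorem chkO_IM : chkO IM = true := by decide +kernel

theorem chkO_ZM : chkO ZM = true := by decide +kernel

theorem chkO_WM : chkO WM = true := by decide +kernel

theorem mv_IM (w : V) : mv IM w = w := by
  have h : chkI IM 0 = true := by decide +kernel
  rw [chkI, iniF_eq, stLF_eq, nthL_eq] at h
  have h1 := eqL_eq h
  have h2 := st_X0.step (isom_of_chkO chkO_IM).1
  have h3 : St (st1 IM X0) (fun w => w) := by
    rw [show st1 IM X0 = X0 from h1]
    exact st_X0
  exact h2.ext h3 w

theorem mt_one : Mt IM 1 := fun w => (mv_IM w).symm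

theorem one_bd : Bd 1 263139026617958399 247867571952861938194127346 :=
  of_chkR (R := IM) (ch := [699, 18687, 11346, 16438, 10797, 4398, 11989, 5954, 10209]) (by decide +kernel) mt_one

theorem key_xx : key xx = 38062559209238401384694 := key_of_chkK (R := XM) (by decide +kernel) mt_xx

theorem key_yy : key yy = 37778940519105117029090 := key_of_chkK (R := YM) (by decide +kernel) mt_yy

theorem key_tt : key tt = 37778931862957379354624 := key_of_chkK (R := TM) (by decide +kernel) mt_tt

theorem exists_z : ∃ g : V ≃ₗ[ZMod 3] V, g ∈ OB ∧ ∀ w, g w = mv ZM w :=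
  H830.O9.exists_ob ZM (isom_of_chkO chkO_ZM).1 (isom_of_chkO chkO_ZM).2

/-- the negative of the identity -/
noncomputable def zz : V ≃ₗ[ZMod 3] V := exists_z.choose

theorem zz_mem : zz ∈ OB := exists_z.choose_spec.1
theorem mt_zz : Mt ZM zz := exists_z.choose_spec.2

theorem key_zz : key zz = 37778931862957374046208 := key_of_chkK (R := ZM) (by decide +kernel) mt_zz

theorem zt_eq (w : V) : (zz * tt) w = mv WM w := by
  have h := of_chkP (X := ZM) (Y := TM) (P := IM) (G := WM) (isom_of_chkO chkO_ZM).1 (isom_of_chkO chkO_TM).1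
    (isom_of_chkO chkO_IM).1 (isom_of_chkO chkO_WM).1 (by decide +kernel) w
  rw [mv_IM, mv_IM] at h
  rw [h, ← mt_tt, ← mt_zz]
  rfl

theorem key_zt : key (zz * tt) = 80582461663687626138847398 := key_of_chkK (R := WM) (by decide +kernel) zt_eq

theorem zz_sq : zz * zz = 1 := by
  have h := pow_of_chkI (R := ZM) (m := 1) (isom_of_chkO chkO_ZM).1 mt_zz (by decide +kernel)
  rwa [pow_two] at h

theorem tt_sq : tt * tt = 1 := by
  have h := pow_of_chkI (R := TM) (m := 1) (isom_of_chkO chkO_TM).1 mt_tt (by decide +kernel)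
  rwa [pow_two] at h

/-- the matrices commute -/
noncomputable def chkCm (A C : List (List ℕ)) : Bool :=
  iniF [0, 1, 2, 3, 4, 5, 6, 7, 8] fun x => stF A x fun a => stF C x fun c => stF A c fun ac => stF C a fun ca =>
    eqL ac ca

theorem comm_of {A C : List (List ℕ)} (hA : Sq A) (hC : Sq C) (h : chkCm A C = true) {a c : V ≃ₗ[ZMod 3] V}
    (ha : Mt A a) (hc : Mt C c) : a * c = c * a := by
  rw [chkCm, iniF_eq, stF_eq, stF_eq, stF_eq, stF_eq] at h
  have h1 := (st_X0.step hC).step hA
  have h2 := (st_X0.step hA).step hC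
  have e := eqL_eq h
  have h3 : St (st1 A (st1 C X0)) (fun w => mv C (mv A w)) := by
    rw [show st1 A (st1 C X0) = st1 C (st1 A X0) from e]
    exact h2
  refine LinearEquiv.ext fun w => ?_
  have h4 := h1.ext h3 w
  show a (c w) = c (a w)
  rw [ha, hc, hc, ha]
  exact h4

theorem zx : zz * xx = xx * zz :=
  comm_of (isom_of_chkO chkO_ZM).1 (isom_of_chkO chkO_XM).1 (by decide +kernel) mt_zz mt_xx

theorem zy : zz * yy = yy * zz :=
  comm_of (isom_of_chkO chkO_ZM).1 (isom_of_chkO chkO_YM).1 (by decide +kernel) mt_zz mt_yy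

theorem zt : zz * tt = tt * zz :=
  comm_of (isom_of_chkO chkO_ZM).1 (isom_of_chkO chkO_TM).1 (by decide +kernel) mt_zz mt_tt

theorem tx : tt * xx = xx * tt :=
  comm_of (isom_of_chkO chkO_TM).1 (isom_of_chkO chkO_XM).1 (by decide +kernel) mt_tt mt_xx

theorem ty : tt * yy = yy * tt :=
  comm_of (isom_of_chkO chkO_TM).1 (isom_of_chkO chkO_YM).1 (by decide +kernel) mt_tt mt_yy

theorem keys_nodup : (247867571952861938194127346 :: Lst.map Prod.snd).Nodup := by decide +kernel

theorem sum_le : 65784756654489600 ≤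
    (((263139026617958399, 247867571952861938194127346) :: Lst).map fun z => 4 * 65784756654489600 / Nat.succ z.1).sum := by
  decide +kernel

theorem keys_mem : (∀ k ∈ 247867571952861938194127346 :: Lst.map Prod.snd, k ≠ 37778931862957374046208 ∧ k ≠ 37778931862957379354624 ∧ k ≠ 80582461663687626138847398) ∧ 38062559209238401384694 ≠ 247867571952861938194127346 ∧ 37778940519105117029090 ≠ 247867571952861938194127346 := by
  decide +kernel

end Cfsg.Agent.H651.O9
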